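import Cfsg.Agent.H722.DPol.Main
import Cfsg.Agent.H316.HT.Defs
import Cfsg.Agent.Blocks.Knorr
import Mathlib.NumberTheory.Padics.PadicVal.Basic
import Mathlib.NumberTheory.Multiplicity

/-!
# The `p`-part of the degrees of the dual polar characters, linear primes (helper766)

`p` an odd prime, `e` the order of `Q` modulo `p`, `e` odd, `s = Q ^ σ`, `w = m / e`, `p ≤ w < p ^ 2`, `w % p ≠ p - 1`:
the degree `ff Q s m (e * (p - 1))` has `p`-part exactly `p` (`val_ff_linear`).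

`vd_of_val`: from the degree as a rational number to `H316.HT.vd`.
-/

set_option autoImplicit false

namespace Cfsg.Agent.H766.HT

open Finset Cfsg.Agent.H722.DPol

/-- The number of `i < T * k` in a residue class modulo `T`. -/
theorem cnt {T : ℕ} (hT : 0 < T) (r : ℤ) (k : ℕ) :
    ∑ i ∈ range (T * k), (if (T : ℤ) ∣ (i : ℤ) + r then (1 : ℤ) else 0) = k := by
  induction k with
  | zero => simp
  | succ k ih =>
    rw [Nat.mul_succ, sum_range_add, ih]
    have hT' : (0 : ℤ) < T := by exact_mod_cast hT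
    have h0 : 0 ≤ (-r) % (T : ℤ) := Int.emod_nonneg _ hT'.ne'
    have h1 : (-r) % (T : ℤ) < T := Int.emod_lt_of_pos _ hT'
    obtain ⟨i0, hi0⟩ := Int.eq_ofNat_of_zero_le h0
    have h2 : ∀ i ∈ range T, (if (T : ℤ) ∣ ((T * k + i : ℕ) : ℤ) + r then (1 : ℤ) else 0) = if i = i0 then 1 else 0 := by
      intro i hi
      rw [mem_range] at hi
      have h3 : (T : ℤ) ∣ ((T * k + i : ℕ) : ℤ) + r ↔ i = i0 := by
        push_cast
        rw [show (T : ℤ) * k + i + r = T * k + (i + r) by ring, Int.dvd_add_right (Dvd.intro _ rfl)]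
        constructor
        · intro h
          have h4 : (i : ℤ) % T = (-r) % T := by
            have : (i : ℤ) ≡ -r [ZMOD T] := by
              rw [Int.modEq_iff_dvd]
              have e : -r - (i : ℤ) = -(i + r) := by ring
              rw [e]
              exact (dvd_neg).2 h
            exact this
          rw [hi0, Int.emod_eq_of_lt (by positivity) (by exact_mod_cast hi)] at h4
          exact_mod_cast h4
        · rintro rfl
          have h4 : (i : ℤ) ≡ -r [ZMOD T] := by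
            have h5 : (i : ℤ) % T = (-r) % T := by
              rw [hi0, Int.emod_eq_of_lt (by positivity) (by exact_mod_cast hi)]
            exact h5
          rw [Int.modEq_iff_dvd] at h4
          have e : -r - (i : ℤ) = -(i + r) := by ring
          rw [e] at h4
          exact (dvd_neg).1 h4
      simp only [h3]
    rw [sum_congr rfl h2, sum_ite_eq', if_pos (mem_range.2 (by omega))]
    push_cast
    ring

/-- valuation of a product -/
theorem val_prod {p : ℕ} [Fact p.Prime] {ι : Type*} (t : Finset ι) (f : ι → ℚ) (h : ∀ i ∈ t, f i ≠ 0) :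
    padicValRat p (∏ i ∈ t, f i) = ∑ i ∈ t, padicValRat p (f i) := by
  classical
  induction t using Finset.induction_on with
  | empty => simp
  | insert a t ha ih =>
    rw [prod_insert ha, sum_insert ha, padicValRat.mul (h a (mem_insert_self _ _))
      (prod_ne_zero_iff.2 fun i hi => h i (mem_insert_of_mem hi)), ih fun i hi => h i (mem_insert_of_mem hi)]

section

variable {p : ℕ} [hp : Fact p.Prime] {Q e : ℕ}

theorem not_dvd_of_order (he : orderOf (Q : ZMod p) = e) (h0 : 0 < e) : ¬ p ∣ Q := by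
  intro h
  have h1 : (Q : ZMod p) = 0 := (ZMod.natCast_eq_zero_iff _ _).2 h
  have h2 := pow_orderOf_eq_one (Q : ZMod p)
  rw [he, h1, zero_pow h0.ne'] at h2
  exact zero_ne_one h2

theorem dvd_pow_sub_one_iff (hQ : 1 ≤ Q) (he : orderOf (Q : ZMod p) = e) (t : ℕ) : p ∣ Q ^ t - 1 ↔ e ∣ t := by
  rw [← he, orderOf_dvd_iff_pow_eq_one, ← ZMod.natCast_eq_zero_iff, Nat.cast_sub (Nat.one_le_pow _ _ hQ)]
  push_cast
  exact sub_eq_zero

/-- linear primes: the terms `Q ^ x + Q ^ y` are units. -/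
theorem val_add (hp2 : p ≠ 2) (he : orderOf (Q : ZMod p) = e) (hodd : Odd e) (x y : ℕ) :
    padicValRat p ((Q : ℚ) ^ x + (Q : ℚ) ^ y) = 0 := by
  have hpos : 0 < e := hodd.pos
  have hpQ := not_dvd_of_order he hpos
  have hQ0 : (Q : ZMod p) ≠ 0 := fun h => hpQ ((ZMod.natCast_eq_zero_iff _ _).1 h)
  have key : ∀ t : ℕ, (Q : ZMod p) ^ t ≠ -1 := by
    intro t ht
    have h1 : ((Q : ZMod p) ^ t) ^ e = 1 := by
      rw [← pow_mul, mul_comm, pow_mul, ← he, pow_orderOf_eq_one, one_pow]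
    rw [ht, hodd.neg_one_pow] at h1
    have h2 : ((2 : ℕ) : ZMod p) = 0 := by
      push_cast
      linear_combination -h1
    rw [ZMod.natCast_eq_zero_iff] at h2
    exact hp2 ((Nat.prime_dvd_prime_iff_eq hp.out Nat.prime_two).1 h2)
  have h3 : ¬ p ∣ Q ^ x + Q ^ y := by
    intro h
    rw [← ZMod.natCast_eq_zero_iff] at h
    push_cast at h
    rcases le_total x y with hxy | hxy
    · obtain ⟨t, rfl⟩ := Nat.exists_eq_add_of_le hxy
      rw [pow_add] at h
      have h4 : (Q : ZMod p) ^ x * (1 + (Q : ZMod p) ^ t) = 0 := by linear_combination h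
      rcases mul_eq_zero.1 h4 with h5 | h5
      · exact pow_ne_zero _ hQ0 h5
      · exact key t (by linear_combination h5)
    · obtain ⟨t, rfl⟩ := Nat.exists_eq_add_of_le hxy
      rw [pow_add] at h
      have h4 : (Q : ZMod p) ^ y * (1 + (Q : ZMod p) ^ t) = 0 := by linear_combination h
      rcases mul_eq_zero.1 h4 with h5 | h5
      · exact pow_ne_zero _ hQ0 h5
      · exact key t (by linear_combination h5)
  have h6 : ((Q : ℚ) ^ x + (Q : ℚ) ^ y) = ((Q ^ x + Q ^ y : ℕ) : ℚ) := by push_cast; ring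
  rw [h6, padicValRat.of_nat, padicValNat.eq_zero_of_not_dvd h3]
  rfl

/-- linear primes: the valuation of `Q ^ t - 1`, `0 < t < e p ^ 2`. -/
theorem val_sub (hp2 : p ≠ 2) (hQ : 2 ≤ Q) (he : orderOf (Q : ZMod p) = e) (h0 : 0 < e) {t : ℕ} (ht : 0 < t)
    (ht2 : t < e * (p * p)) :
    padicValRat p ((Q : ℚ) ^ t - 1) = (padicValNat p (Q ^ e - 1) : ℤ) * (if (e : ℤ) ∣ (t : ℤ) then 1 else 0) +
      (if e * p ∣ t then 1 else 0) := by
  have hpQ := not_dvd_of_order he h0
  have h6 : ((Q : ℚ) ^ t - 1) = ((Q ^ t - 1 : ℕ) : ℚ) := by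
    rw [Nat.cast_sub (Nat.one_le_pow _ _ (by omega))]; push_cast; ring
  rw [h6, padicValRat.of_nat]
  by_cases hd : e ∣ t
  · have hd' : (e : ℤ) ∣ (t : ℤ) := by exact_mod_cast hd
    rw [if_pos hd', mul_one]
    obtain ⟨n, rfl⟩ := hd
    have hn : 0 < n := by
      rcases Nat.eq_zero_or_pos n with rfl | h
      · simp at ht
      · exact h
    have hn2 : n < p * p := lt_of_mul_lt_mul_left ht2 (Nat.zero_le _)
    have h1 : p ∣ Q ^ e - 1 := (dvd_pow_sub_one_iff (by omega) he e).2 (dvd_refl _)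
    have h2 : 1 < Q ^ e := Nat.one_lt_pow h0.ne' (by omega)
    have h3 : ¬ p ∣ Q ^ e := fun h => hpQ (hp.out.dvd_of_dvd_pow h)
    have h4 := padicValNat.pow_sub_pow (p := p) (hp.out.odd_of_ne_two hp2) h2 (by simpa using h1) h3 hn.ne'
    rw [one_pow, ← pow_mul] at h4
    rw [h4]
    have h5 : padicValNat p n = if p ∣ n then 1 else 0 := by
      split_ifs with hnp
      · obtain ⟨k, rfl⟩ := hnp
        have hk0 : k ≠ 0 := by rintro rfl; simp at hn
        have hk2 : k < p := lt_of_mul_lt_mul_left hn2 (Nat.zero_le _)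
        rw [padicValNat.mul hp.out.ne_zero hk0, padicValNat_self,
          padicValNat.eq_zero_of_not_dvd fun h => hk0 (Nat.eq_zero_of_dvd_of_lt h hk2)]
      · exact padicValNat.eq_zero_of_not_dvd hnp
    rw [h5]
    have h7 : e * p ∣ e * n ↔ p ∣ n := Nat.mul_dvd_mul_iff_left h0
    simp only [h7]
    push_cast
    rfl
  · have hd' : ¬ (e : ℤ) ∣ (t : ℤ) := by exact_mod_cast hd
    have h1 : ¬ p ∣ Q ^ t - 1 := fun h => hd ((dvd_pow_sub_one_iff (by omega) he t).1 h)
    have h2 : ¬ e * p ∣ t := fun h => hd (dvd_of_mul_right_dvd h)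
    rw [if_neg hd', if_neg h2, padicValNat.eq_zero_of_not_dvd h1]
    simp

/-- **Linear primes**: the degree of the dual polar character with `j = e (p - 1)` has `p`-part `p`. -/
theorem val_ff_linear' (hp2 : p ≠ 2) (hQ : 2 ≤ Q) (he : orderOf (Q : ZMod p) = e) (hodd : Odd e) {m : ℕ} (σ : ℕ)
    (h1 : e * p ≤ m) (h2 : m < e * (p * p)) (h3 : m % (e * p) < e * (p - 1)) :
    padicValRat p (ff (Q : ℚ) ((Q ^ σ : ℕ) : ℚ) m (e * (p - 1))) = 1 := by
  have hp3 : 3 ≤ p := by
    have := hp.out.two_le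
    omega
  have h0 : 0 < e := hodd.pos
  have hQ1 : (1 : ℚ) < Q := by exact_mod_cast hQ
  have hQ0 : (0 : ℚ) < Q := by linarith
  set j := e * (p - 1) with hj
  have e1 : e * p = j + e := by
    rw [hj, ← Nat.mul_succ]
    congr 1
    omega
  have e4 : e * p < e * (p * p) := by
    refine Nat.mul_lt_mul_of_pos_left ?_ h0
    nlinarith
  have hjm : j ≤ m := by omega
  have t1 : ∀ i ∈ range j, ((Q ^ σ : ℕ) : ℚ) * ((Q : ℚ) ^ (m - i) - 1) * (1 + ((Q ^ σ : ℕ) : ℚ) * (Q : ℚ) ^ (m - (i + 1))) /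
      (((Q : ℚ) ^ (i + 1) - 1) * (((Q ^ σ : ℕ) : ℚ) + (Q : ℚ) ^ (i + 1))) ≠ 0 := by
    intro i hi
    rw [mem_range] at hi
    have a1 : 0 < (Q : ℚ) ^ (m - i) - 1 := sub_pos.2 (one_lt_pow₀ hQ1 (by omega))
    have a2 : 0 < (Q : ℚ) ^ (i + 1) - 1 := sub_pos.2 (one_lt_pow₀ hQ1 (by omega))
    push_cast
    positivity
  have t2 : gg (Q : ℚ) ((Q ^ σ : ℕ) : ℚ) m j ≠ 0 := by
    unfold gg
    exact prod_ne_zero_iff.2 t1
  have u1 : padicValRat p (gg (Q : ℚ) ((Q ^ σ : ℕ) : ℚ) m j) =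
      ∑ i ∈ range j, (padicValRat p ((Q : ℚ) ^ (m - i) - 1) - padicValRat p ((Q : ℚ) ^ (i + 1) - 1)) := by
    unfold gg
    rw [val_prod _ _ t1]
    refine sum_congr rfl fun i hi => ?_
    rw [mem_range] at hi
    have a1 : 0 < (Q : ℚ) ^ (m - i) - 1 := sub_pos.2 (one_lt_pow₀ hQ1 (by omega))
    have a2 : 0 < (Q : ℚ) ^ (i + 1) - 1 := sub_pos.2 (one_lt_pow₀ hQ1 (by omega))
    have b0 : ((Q ^ σ : ℕ) : ℚ) ≠ 0 := by push_cast; positivity
    have b1 : (1 + ((Q ^ σ : ℕ) : ℚ) * (Q : ℚ) ^ (m - (i + 1))) ≠ 0 := by push_cast; positivity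
    have b2 : (((Q ^ σ : ℕ) : ℚ) + (Q : ℚ) ^ (i + 1)) ≠ 0 := by push_cast; positivity
    have c0 : padicValRat p ((Q ^ σ : ℕ) : ℚ) = 0 := by
      rw [padicValRat.of_nat, padicValNat.eq_zero_of_not_dvd
        (fun h => not_dvd_of_order he h0 (hp.out.dvd_of_dvd_pow h))]
      rfl
    have c1 : padicValRat p (1 + ((Q ^ σ : ℕ) : ℚ) * (Q : ℚ) ^ (m - (i + 1))) = 0 := by
      have := val_add hp2 he hodd 0 (σ + (m - (i + 1)))
      rw [pow_zero, pow_add] at this
      push_cast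
      exact this
    have c2 : padicValRat p (((Q ^ σ : ℕ) : ℚ) + (Q : ℚ) ^ (i + 1)) = 0 := by
      have := val_add hp2 he hodd σ (i + 1)
      push_cast
      exact this
    rw [padicValRat.div (mul_ne_zero (mul_ne_zero b0 a1.ne') b1) (mul_ne_zero a2.ne' b2),
      padicValRat.mul (mul_ne_zero b0 a1.ne') b1, padicValRat.mul b0 a1.ne', padicValRat.mul a2.ne' b2, c0, c1, c2]
    ring
  have u2 : padicValRat p (ff (Q : ℚ) ((Q ^ σ : ℕ) : ℚ) m j) = padicValRat p (gg (Q : ℚ) ((Q ^ σ : ℕ) : ℚ) m j) := by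
    unfold ff
    have b1 : (Q : ℚ) ^ (2 * j) + ((Q ^ σ : ℕ) : ℚ) * (Q : ℚ) ^ m ≠ 0 := by push_cast; positivity
    have b2 : (Q : ℚ) ^ j + ((Q ^ σ : ℕ) : ℚ) * (Q : ℚ) ^ m ≠ 0 := by push_cast; positivity
    have c1 : padicValRat p ((Q : ℚ) ^ (2 * j) + ((Q ^ σ : ℕ) : ℚ) * (Q : ℚ) ^ m) = 0 := by
      have := val_add hp2 he hodd (2 * j) (σ + m)
      rw [pow_add (Q : ℚ) σ] at this
      push_cast
      exact this
    have c2 : padicValRat p ((Q : ℚ) ^ j + ((Q ^ σ : ℕ) : ℚ) * (Q : ℚ) ^ m) = 0 := by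
      have := val_add hp2 he hodd j (σ + m)
      rw [pow_add (Q : ℚ) σ] at this
      push_cast
      exact this
    rw [padicValRat.div (mul_ne_zero t2 b1) b2, padicValRat.mul t2 b1, c1, c2]
    ring
  rw [u2, u1]
  set a : ℤ := (padicValNat p (Q ^ e - 1) : ℤ) with ha
  have hdm := Nat.div_add_mod m (e * p)
  have v1 : ∀ i ∈ range j, padicValRat p ((Q : ℚ) ^ (m - i) - 1) - padicValRat p ((Q : ℚ) ^ (i + 1) - 1) =
      a * (if (e : ℤ) ∣ (i : ℤ) + (-(m : ℤ)) then 1 else 0) - a * (if (e : ℤ) ∣ (i : ℤ) + 1 then 1 else 0) +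
        (if i = m % (e * p) then 1 else 0) := by
    intro i hi
    rw [mem_range] at hi
    rw [val_sub hp2 hQ he h0 (show 0 < m - i by omega) (by omega),
      val_sub hp2 hQ he h0 (show 0 < i + 1 by omega) (by omega), ← ha]
    have w1 : ((e : ℤ) ∣ ((m - i : ℕ) : ℤ)) ↔ (e : ℤ) ∣ (i : ℤ) + (-(m : ℤ)) := by
      rw [Nat.cast_sub (by omega), ← dvd_neg]
      rw [show -((m : ℤ) - i) = i + -(m : ℤ) by ring]
    have w2 : ((i + 1 : ℕ) : ℤ) = (i : ℤ) + 1 := by push_cast; ring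
    have w3 : (e * p ∣ m - i) ↔ (i = m % (e * p)) := by
      constructor
      · intro h
        have h4 : i ≡ m [MOD e * p] := (Nat.modEq_iff_dvd' (by omega)).2 h
        have h5 : i % (e * p) = m % (e * p) := h4
        rwa [Nat.mod_eq_of_lt (by omega)] at h5
      · intro h
        have h4 : i ≡ m [MOD e * p] := by
          have h5 : i % (e * p) = m % (e * p) := by rw [h, Nat.mod_mod]
          exact h5
        exact (Nat.modEq_iff_dvd' (by omega)).1 h4
    have w4 : ¬ (e * p ∣ i + 1) := fun h => by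
      have := Nat.le_of_dvd (by omega) h
      omega
    simp only [w1, w2, w3, if_neg w4]
    ring
  rw [sum_congr rfl v1, sum_add_distrib, sum_sub_distrib, ← mul_sum, ← mul_sum, hj, cnt h0, cnt h0, sub_self, zero_add,
    sum_ite_eq', if_pos]
  rw [mem_range]
  exact h3

/-- **Linear primes**, `w = m / e`, `p ≤ w < p ^ 2`, `w % p ≠ p - 1`. -/
theorem val_ff_linear (hp2 : p ≠ 2) (hQ : 2 ≤ Q) (he : orderOf (Q : ZMod p) = e) (hodd : Odd e) {m : ℕ} (σ : ℕ)
    (h1 : p ≤ m / e) (h2 : m / e < p * p) (h3 : (m / e) % p ≠ p - 1) :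
    padicValRat p (ff (Q : ℚ) ((Q ^ σ : ℕ) : ℚ) m (e * (p - 1))) = 1 := by
  have h0 : 0 < e := hodd.pos
  have hp0 := hp.out.two_le
  have h4 : (m / e) % p < p := Nat.mod_lt _ (by omega)
  refine val_ff_linear' hp2 hQ he hodd σ ?_ ?_ ?_
  · rw [mul_comm]
    exact (Nat.le_div_iff_mul_le h0).1 h1
  · rw [mul_comm e]
    exact (Nat.div_lt_iff_lt_mul h0).1 h2
  · rw [mul_comm e (p - 1), ← Nat.div_lt_iff_lt_mul h0, Nat.mod_mul_right_div_self]
    omega

end

/-- From the degree as a rational number to the exponent of `p` in the degree. -/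
theorem vd_of_val {p : ℕ} [hp : Fact p.Prime] {G : Type*} [Group G] (χ : Cfsg.IrrCharacter G) {x : ℚ} {n : ℕ}
    (h : (χ : G → ℂ) 1 = (x : ℂ)) (hx : padicValRat p x = n) : Cfsg.Agent.H316.HT.vd p (χ : G → ℂ) = n := by
  have h1 := Cfsg.Agent.Blocks.Knorr.charDegree_eq χ.2
  have h2 : ((Cfsg.charDegree (χ : G → ℂ) : ℕ) : ℚ) = x := by
    have h3 : (((Cfsg.charDegree (χ : G → ℂ) : ℕ) : ℚ) : ℂ) = (x : ℂ) := by
      rw [← h, h1]
      push_cast
      rfl
    exact_mod_cast h3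
  rw [← h2, padicValRat.of_nat] at hx
  unfold Cfsg.Agent.H316.HT.vd
  rw [Nat.factorization_def _ hp.out]
  exact_mod_cast hx

end Cfsg.Agent.H766.HT
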