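import Cfsg.Agent.H139.HT.Lin
import Cfsg.Agent.H195.HT.ConstB0
import Cfsg.Agent.H195.HT.Frob
import Cfsg.Agent.H697.HT.DPForm
import Cfsg.Agent.H766.HT.DPVal
import Cfsg.Agent.H35.HT.Wm

/-!
# The characters `χ'` of the dual polar schemes, all properties (helper766, for S4933, box M6)

* `exists_chi` : `F'.iso` acting on `F'.Om m`, dual polar scheme with parameters `q, q ^ t`: the character number `j`:
  principal block, degree, constituent, multiplicity one, restriction to the stabiliser, invariance;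
* `exists_wm` : with the arithmetic of helper35 (`Ok`).
-/

set_option autoImplicit false
set_option linter.unusedSectionVars false

open scoped ComplexConjugate
open Cfsg

namespace Cfsg.Agent.H766.HT

open Cfsg.Agent.Characters Cfsg.Agent.Characters.Core MulAction Module Cfsg.Agent.H53.HC
open Cfsg.Agent.H477.HC Cfsg.Agent.H477.HC.CForm
open Cfsg.Agent.H722.DPol Cfsg.Agent.H697.HT.DPB0 Cfsg.Agent.H139.HT

universe u v w

variable {K : Type u} [Field K] {X : Type w} [AddCommGroup X] [Module K X] {F' : CForm K X}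

/-- `F'.Om m` represents the totally singular subspaces -/
theorem polSet_Om (F' : CForm K X) (m : ℕ) :
    letI := subAct F'.iso.subtype (F'.Om m) F'.Om_map
    PolSet F' m (F'.Om m) Subtype.val (fun x y : F'.Om m => m - finrank K ↥(x.1 ⊓ y.1)) := by
  let _ := subAct F'.iso.subtype (F'.Om m) F'.Om_map
  exact ⟨Subtype.val_injective, fun y => y.2, fun W hW => ⟨⟨W, hW⟩, rfl⟩, fun _ _ => rfl, fun _ _ => rfl⟩

/-- everything about the character number `j` of the dual polar scheme `q, q ^ t` of `F'.iso` -/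
structure ChiBox (F' : CForm K X) (m t j : ℕ) (χ : IrrCharacter F'.iso) : Prop where
  /-- helper195's structure -/
  chi : letI := subAct F'.iso.subtype (F'.Om m) F'.Om_map
    ∀ [Fintype F'.iso] [Fintype (F'.Om m)],
      H195.HT.Chi F'.iso (F'.Om m) (fun x y : F'.Om m => m - finrank K ↥(x.1 ⊓ y.1)) m (Nat.card K) (Nat.card K ^ t) j χ
  /-- the principal block, unitary primes -/
  mem : ∀ (p : ℕ) (M : Ideal AlgInt) (c : ℕ), IsPModular p M → ((Nat.card K : ℕ) : ZMod p) ^ c = -1 →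
    ((Nat.card K : ℕ) : ZMod p) ^ j = 1 → χ ∈ principalBlock M F'.iso
  /-- the degree -/
  deg : (χ : F'.iso → ℂ) 1 = ((ff (Nat.card K : ℚ) ((Nat.card K : ℚ) ^ t) m j : ℚ) : ℂ)
  /-- the complement in the permutation character -/
  theta : letI := subAct F'.iso.subtype (F'.Om m) F'.Om_map
    ∃ θ : F'.iso → ℂ, IsCharacter F'.iso θ ∧
      ∀ g : F'.iso, (χ : F'.iso → ℂ) g + θ g = (Nat.card {x : F'.Om m // g • x = x} : ℂ)
  /-- the multiplicity in the permutation character -/
  mult : letI := subAct F'.iso.subtype (F'.Om m) F'.Om_map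
    ∀ [Fintype F'.iso], classInner (fun g : F'.iso => (Nat.card {x : F'.Om m // g • x = x} : ℂ)) (χ : F'.iso → ℂ) = 1
  /-- the restriction to the stabiliser of a point -/
  stab : ∀ Z ∈ F'.Om m, ∀ [Fintype (stabW F'.iso.subtype Z)],
    classInner (fun g : stabW F'.iso.subtype Z => (χ : F'.iso → ℂ) g) (fun _ => (1 : ℂ)) = 1
  /-- the invariance under all semisimilarities -/
  inv : ∀ τ : K ≃+* K, IsoInv F' τ (χ : F'.iso → ℂ)

/-- **the character `χ_j`** with all its properties -/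
theorem exists_chi [Finite K] [FiniteDimensional K X] {m t j : ℕ} (hm : 1 ≤ m) (hne : Nonempty (F'.Om m))
    (hDP : letI := subAct F'.iso.subtype (F'.Om m) F'.Om_map
      DP F'.iso (F'.Om m) (fun x y : F'.Om m => m - finrank K ↥(x.1 ⊓ y.1)) m (Nat.card K) (Nat.card K ^ t))
    (hj : j ≤ m) : ∃ χ : IrrCharacter F'.iso, ChiBox F' m t j χ := by
  classical
  have hfX : Finite X := Module.finite_of_finite K
  have := finite_iso F'
  have := finite_Om F' m
  let _ := subAct F'.iso.subtype (F'.Om m) F'.Om_map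
  let i1 := Fintype.ofFinite (F'.Om m)
  let i2 := Fintype.ofFinite F'.iso
  obtain ⟨χ, hχ⟩ := H195.HT.exists_chi (G := F'.iso) (X := F'.Om m) Finite.one_lt_card
    (Nat.one_le_pow _ _ Nat.card_pos) hm hDP hj
  refine ⟨χ, ?_, ?_, ?_, hχ.theta, ?_, ?_, fun τ => (polSet_Om F' m).isoInv hχ.isChi τ⟩
  · intro j1 j2
    obtain rfl := Subsingleton.elim j1 i2
    obtain rfl := Subsingleton.elim j2 i1
    exact hχ
  · intro p M c hM hc hQj
    exact hχ.mem_unitary hDP hM rfl hj hc hQj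
  · have := hχ.isChi.1
    rw [this]
    push_cast
    rfl
  · intro j1
    obtain rfl := Subsingleton.elim j1 i2
    exact hχ.mult
  · intro Z hZ inst
    exact H195.HT.inner_stab_one (fun x y => H195.HT.DR_tr hDP x y) (isIrr_isCharacter χ.2) hχ.mult (⟨Z, hZ⟩ : F'.Om m)
      (stabW F'.iso.subtype Z) (fun g => by
        rw [mem_stabW]
        exact ⟨fun h => Subtype.ext h, fun h => congrArg Subtype.val h⟩)

/-- weights `w = -1` modulo `p`: the properties of the character of the smaller group -/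
structure WmBox (p : ℕ) (F' : CForm K X) (m : ℕ) (b : Prop) (χ : IrrCharacter F'.iso) : Prop where
  mem : ∀ M : Ideal AlgInt, IsPModular p M → χ ∈ principalBlock M F'.iso
  theta : letI := subAct F'.iso.subtype (F'.Om m) F'.Om_map
    ∃ θ : F'.iso → ℂ, IsCharacter F'.iso θ ∧
      ∀ g : F'.iso, (χ : F'.iso → ℂ) g + θ g = (Nat.card {x : F'.Om m // g • x = x} : ℂ)
  mult : letI := subAct F'.iso.subtype (F'.Om m) F'.Om_map
    ∀ [Fintype F'.iso], classInner (fun g : F'.iso => (Nat.card {x : F'.Om m // g • x = x} : ℂ)) (χ : F'.iso → ℂ) = 1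
  stab : ∀ Z ∈ F'.Om m, ∀ [Fintype (stabW F'.iso.subtype Z)],
    classInner (fun g : stabW F'.iso.subtype Z => (χ : F'.iso → ℂ) g) (fun _ => (1 : ℂ)) = 1
  inv : ∀ τ : K ≃+* K, IsoInv F' τ (χ : F'.iso → ℂ)
  one_le : 1 ≤ H316.HT.vd p (χ : F'.iso → ℂ)
  le_two : H316.HT.vd p (χ : F'.iso → ℂ) ≤ 2
  eq_one : b → H316.HT.vd p (χ : F'.iso → ℂ) = 1
  /-- the full structure -/
  box : ∃ t j : ℕ, 0 < j ∧ j ≤ m ∧ ((Nat.card K : ℕ) : ZMod p) ^ j = 1 ∧ ChiBox F' m t j χ

/-- with helper35's arithmetic -/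
theorem exists_wm [Finite K] [FiniteDimensional K X] {p : ℕ} [Fact p.Prime] {m t c : ℕ} {b : Prop}
    (hne : 1 ≤ m → Nonempty (F'.Om m))
    (hDP : letI := subAct F'.iso.subtype (F'.Om m) F'.Om_map
      1 ≤ m → DP F'.iso (F'.Om m) (fun x y : F'.Om m => m - finrank K ↥(x.1 ⊓ y.1)) m (Nat.card K) (Nat.card K ^ t))
    (hc : ((Nat.card K : ℕ) : ZMod p) ^ c = -1) (hok : H35.HT.Wm.Ok p (Nat.card K) m t b) :
    ∃ χ : IrrCharacter F'.iso, WmBox p F' m b χ := by
  obtain ⟨j, v, hj0, hjm, hQj, hv, h1, h2, h3⟩ := hok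
  have hm : 1 ≤ m := hj0.trans_le hjm
  obtain ⟨χ, hχ⟩ := exists_chi hm (hne hm) (hDP hm) hjm
  have e : H316.HT.vd p (χ : F'.iso → ℂ) = v := vd_of_val χ hχ.deg hv
  exact ⟨χ, fun M hM => hχ.mem p M c hM hc hQj, hχ.theta, hχ.mult, hχ.stab, hχ.inv, e ▸ h1, e ▸ h2,
    fun hb => e.trans (h3 hb), t, j, hj0, hjm, hQj, hχ⟩

end Cfsg.Agent.H766.HT
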