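import Cfsg.Agent.H766.HT.OrdO
import Cfsg.Agent.S0286
import Cfsg.Agent.S0287
import Cfsg.Agent.S0288

/-!
# The `p`-parts of the orders of the orthogonal groups and of `GL_n` (helper766)

Statements in the form of helper530 (the full isometry groups).
-/

set_option autoImplicit false
set_option linter.unusedSectionVars false

namespace Cfsg.Agent.H766.HT

open Finset

variable {p : ℕ} [hp : Fact p.Prime] {F : Type*} [Field F] [Fintype F]

theorem fac_prod_vS' {q : ℕ} (hq : 2 ≤ q) (m : ℕ) :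
    (∏ i ∈ range m, (q ^ (2 * (i + 1)) - 1)).factorization p = vS p q m := by
  have hpos : ∀ i ∈ range m, q ^ (2 * (i + 1)) - 1 ≠ 0 := by
    intro i _
    have : 1 < q ^ (2 * (i + 1)) := Nat.one_lt_pow (by omega) (by omega)
    omega
  rw [Nat.factorization_prod hpos, Finsupp.finsetSum_apply]
  rfl

theorem prod_ne' {q : ℕ} (hq : 2 ≤ q) (m : ℕ) : ∏ i ∈ range m, (q ^ (2 * (i + 1)) - 1) ≠ 0 := by
  refine prod_ne_zero_iff.2 fun i _ => ?_
  have : 1 < q ^ (2 * (i + 1)) := Nat.one_lt_pow (by omega) (by omega)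
  omega

theorem fac_two (hp2 : p ≠ 2) : (2 : ℕ).factorization p = 0 :=
  Nat.factorization_eq_zero_of_not_dvd (n := 2)
    (fun h => hp2 ((Nat.prime_dvd_prime_iff_eq hp.out Nat.prime_two).1 h))

theorem val_odd (hp2 : p ≠ 2) (hpF : ¬ p ∣ Fintype.card F) (hodd : Odd (Fintype.card F)) (m : ℕ) :
    (Nat.card (Cfsg.isometryGroup F (Cfsg.quadFormOdd m F))).factorization p = vS p (Fintype.card F) m := by
  have hq : 2 ≤ Fintype.card F := Fintype.one_lt_card
  rw [Cfsg.Agent.S0286.result rfl hodd m,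
    Nat.factorization_mul (mul_ne_zero (by norm_num) (pow_ne_zero _ (by omega))) (prod_ne' hq m), Finsupp.add_apply,
    Nat.factorization_mul (by norm_num) (pow_ne_zero _ (by omega)), Finsupp.add_apply, fac_two hp2,
    Nat.factorization_eq_zero_of_not_dvd (n := Fintype.card F ^ (m ^ 2)) (fun h => hpF (hp.out.dvd_of_dvd_pow h)),
    fac_prod_vS' hq, Nat.zero_add]

theorem val_plus (hp2 : p ≠ 2) (hpF : ¬ p ∣ Fintype.card F) {m : ℕ} (hm : 1 ≤ m) :
    (Nat.card (Cfsg.isometryGroup F (Cfsg.quadFormPlus m F))).factorization p =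
      (Fintype.card F ^ m - 1).factorization p + vS p (Fintype.card F) (m - 1) := by
  have hq : 2 ≤ Fintype.card F := Fintype.one_lt_card
  have h2 : 1 < Fintype.card F ^ m := Nat.one_lt_pow (by omega) (by omega)
  rw [Cfsg.Agent.S0287.result rfl m hm,
    Nat.factorization_mul (mul_ne_zero (mul_ne_zero (by norm_num) (pow_ne_zero _ (by omega))) (by omega))
      (prod_ne' hq (m - 1)), Finsupp.add_apply,
    Nat.factorization_mul (mul_ne_zero (by norm_num) (pow_ne_zero _ (by omega))) (by omega), Finsupp.add_apply,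
    Nat.factorization_mul (by norm_num) (pow_ne_zero _ (by omega)), Finsupp.add_apply, fac_two hp2,
    Nat.factorization_eq_zero_of_not_dvd (n := Fintype.card F ^ (m * (m - 1)))
      (fun h => hpF (hp.out.dvd_of_dvd_pow h)), fac_prod_vS' hq, Nat.zero_add]

theorem val_minus (hp2 : p ≠ 2) (hpF : ¬ p ∣ Fintype.card F) (m : ℕ) {a b : F}
    (hab : ∀ z₁ z₂ : F, z₁ ^ 2 + a * z₁ * z₂ + b * z₂ ^ 2 = 0 → z₁ = 0 ∧ z₂ = 0) :
    (Nat.card (Cfsg.isometryGroup F (Cfsg.quadFormMinus m F a b))).factorization p =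
      (Fintype.card F ^ (m + 1) + 1).factorization p + vS p (Fintype.card F) m := by
  have hq : 2 ≤ Fintype.card F := Fintype.one_lt_card
  have h : Nat.card (Cfsg.isometryGroup F (Cfsg.quadFormMinus m F a b)) =
      2 * Fintype.card F ^ ((m + 1) * m) * (Fintype.card F ^ (m + 1) + 1) *
        ∏ i ∈ Finset.range m, (Fintype.card F ^ (2 * (i + 1)) - 1) :=
    Cfsg.Agent.S0288.result rfl (m + 1) (by omega) a b hab
  rw [h,
    Nat.factorization_mul (mul_ne_zero (mul_ne_zero (by norm_num) (pow_ne_zero _ (by omega))) (by omega))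
      (prod_ne' hq m), Finsupp.add_apply,
    Nat.factorization_mul (mul_ne_zero (by norm_num) (pow_ne_zero _ (by omega))) (by omega), Finsupp.add_apply,
    Nat.factorization_mul (by norm_num) (pow_ne_zero _ (by omega)), Finsupp.add_apply, fac_two hp2,
    Nat.factorization_eq_zero_of_not_dvd (n := Fintype.card F ^ ((m + 1) * m))
      (fun h => hpF (hp.out.dvd_of_dvd_pow h)), fac_prod_vS' hq, Nat.zero_add]

theorem odd_f_odd (hp2 : p ≠ 2) (hpF : ¬ p ∣ Fintype.card F) (hodd : Odd (Fintype.card F))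
    (hf : Odd (orderOf ((Fintype.card F : ℕ) : ZMod p))) (m : ℕ) :
    (Nat.card (Cfsg.isometryGroup F (Cfsg.quadFormOdd m F))).factorization p =
      (Nat.card (Matrix.GeneralLinearGroup (Fin m) F)).factorization p := by
  rw [val_odd hp2 hpF hodd, card_GL rfl hpF, vS_odd hp2 hpF Fintype.one_lt_card hf]

theorem odd_f_even (hp2 : p ≠ 2) (hpF : ¬ p ∣ Fintype.card F) (hodd : Odd (Fintype.card F))
    (hf : Even (orderOf ((Fintype.card F : ℕ) : ZMod p))) (m : ℕ) :
    (Nat.card (Cfsg.isometryGroup F (Cfsg.quadFormOdd m F))).factorization p =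
      (Nat.card (Matrix.GeneralLinearGroup (Fin (2 * m + 1)) F)).factorization p := by
  rw [val_odd hp2 hpF hodd, card_GL rfl hpF, vS_even' Fintype.one_lt_card hf]

theorem plus_f_odd (hp2 : p ≠ 2) (hpF : ¬ p ∣ Fintype.card F) {m : ℕ} (hm : 1 ≤ m)
    (hf : Odd (orderOf ((Fintype.card F : ℕ) : ZMod p))) :
    (Nat.card (Cfsg.isometryGroup F (Cfsg.quadFormPlus m F))).factorization p =
      (Nat.card (Matrix.GeneralLinearGroup (Fin m) F)).factorization p := by
  rw [val_plus hp2 hpF hm, card_GL rfl hpF, plus_odd hp2 hpF Fintype.one_lt_card hf (by omega)]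

theorem plus_f_even (hp2 : p ≠ 2) (hpF : ¬ p ∣ Fintype.card F) {m : ℕ} (hm : 1 ≤ m)
    (hf : Even (orderOf ((Fintype.card F : ℕ) : ZMod p)))
    (hd : orderOf ((Fintype.card F : ℕ) : ZMod p) ∣ 2 * m → orderOf ((Fintype.card F : ℕ) : ZMod p) ∣ m) :
    (Nat.card (Cfsg.isometryGroup F (Cfsg.quadFormPlus m F))).factorization p =
      (Nat.card (Matrix.GeneralLinearGroup (Fin (2 * m)) F)).factorization p := by
  rw [val_plus hp2 hpF hm, card_GL rfl hpF, plus_even_full hp2 Fintype.one_lt_card hf (by omega) hd]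

theorem plus_drop (hp2 : p ≠ 2) (hpF : ¬ p ∣ Fintype.card F) {m : ℕ} (hm : 1 ≤ m)
    (hf : Even (orderOf ((Fintype.card F : ℕ) : ZMod p)))
    (hd : orderOf ((Fintype.card F : ℕ) : ZMod p) ∣ 2 * (m + 1))
    (hd' : ¬ orderOf ((Fintype.card F : ℕ) : ZMod p) ∣ m + 1) :
    (Nat.card (Cfsg.isometryGroup F (Cfsg.quadFormPlus (m + 1) F))).factorization p =
        (Nat.card (Cfsg.isometryGroup F (Cfsg.quadFormPlus m F))).factorization p ∧
      (Nat.card (Cfsg.isometryGroup F (Cfsg.quadFormPlus m F))).factorization p =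
        (Nat.card (Matrix.GeneralLinearGroup (Fin (2 * m)) F)).factorization p := by
  have hq : 2 ≤ Fintype.card F := Fintype.one_lt_card
  have key : orderOf ((Fintype.card F : ℕ) : ZMod p) ∣ 2 * m → orderOf ((Fintype.card F : ℕ) : ZMod p) ∣ m := by
    intro h
    have h1 : orderOf ((Fintype.card F : ℕ) : ZMod p) ∣ 2 := by
      have h2 := (Nat.dvd_add_right h).1 (show _ ∣ 2 * m + 2 by rwa [show 2 * m + 2 = 2 * (m + 1) by ring])
      exact h2
    have h3 : orderOf ((Fintype.card F : ℕ) : ZMod p) = 2 :=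
      Nat.dvd_antisymm h1 (even_iff_two_dvd.1 hf)
    rw [h3] at hd' ⊢
    omega
  have h1 := plus_f_even hp2 hpF hm hf key
  refine ⟨?_, h1⟩
  rw [h1, val_plus hp2 hpF (by omega), plus_even_not_dvd hq hf (Nat.succ_pos m) hd', card_GL rfl hpF]
  rfl

theorem minus_f_odd (hp2 : p ≠ 2) (hpF : ¬ p ∣ Fintype.card F) (m : ℕ) {a b : F}
    (hab : ∀ z₁ z₂ : F, z₁ ^ 2 + a * z₁ * z₂ + b * z₂ ^ 2 = 0 → z₁ = 0 ∧ z₂ = 0)
    (hf : Odd (orderOf ((Fintype.card F : ℕ) : ZMod p))) :
    (Nat.card (Cfsg.isometryGroup F (Cfsg.quadFormMinus m F a b))).factorization p =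
      (Nat.card (Matrix.GeneralLinearGroup (Fin m) F)).factorization p := by
  rw [val_minus hp2 hpF m hab, card_GL rfl hpF, minus_odd hp2 hpF Fintype.one_lt_card hf]

theorem minus_f_even (hp2 : p ≠ 2) (hpF : ¬ p ∣ Fintype.card F) (m : ℕ) {a b : F}
    (hab : ∀ z₁ z₂ : F, z₁ ^ 2 + a * z₁ * z₂ + b * z₂ ^ 2 = 0 → z₁ = 0 ∧ z₂ = 0)
    (hf : Even (orderOf ((Fintype.card F : ℕ) : ZMod p)))
    (hd : ¬ orderOf ((Fintype.card F : ℕ) : ZMod p) ∣ m + 1) :
    (Nat.card (Cfsg.isometryGroup F (Cfsg.quadFormMinus m F a b))).factorization p =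
      (Nat.card (Matrix.GeneralLinearGroup (Fin (2 * (m + 1))) F)).factorization p := by
  have hq : 2 ≤ Fintype.card F := Fintype.one_lt_card
  have h3 := fac_two_mul (p := p) hq (Nat.succ_pos m)
  rw [(fac_eq_zero_iff hq (Nat.succ_pos m)).2 hd, Nat.zero_add] at h3
  rw [val_minus hp2 hpF m hab, card_GL rfl hpF, ← vS_even hq hf, vS_succ, Nat.add_comm, h3]

theorem minus_drop (hp2 : p ≠ 2) (hpF : ¬ p ∣ Fintype.card F) (m : ℕ) {a b : F}
    (hab : ∀ z₁ z₂ : F, z₁ ^ 2 + a * z₁ * z₂ + b * z₂ ^ 2 = 0 → z₁ = 0 ∧ z₂ = 0)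
    (hf : Even (orderOf ((Fintype.card F : ℕ) : ZMod p)))
    (hd : orderOf ((Fintype.card F : ℕ) : ZMod p) ∣ m + 2) :
    (Nat.card (Cfsg.isometryGroup F (Cfsg.quadFormMinus (m + 1) F a b))).factorization p =
        (Nat.card (Cfsg.isometryGroup F (Cfsg.quadFormMinus m F a b))).factorization p ∧
      (Nat.card (Cfsg.isometryGroup F (Cfsg.quadFormMinus m F a b))).factorization p =
        (Nat.card (Matrix.GeneralLinearGroup (Fin (2 * (m + 1))) F)).factorization p := by
  have hq : 2 ≤ Fintype.card F := Fintype.one_lt_card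
  have hd' : ¬ orderOf ((Fintype.card F : ℕ) : ZMod p) ∣ m + 1 := by
    intro h
    have h1 := (Nat.dvd_add_right h).1 (show _ ∣ (m + 1) + 1 from hd)
    have h2 := (even_iff_two_dvd.1 hf).trans h1
    omega
  have h1 := minus_f_even hp2 hpF m hab hf hd'
  refine ⟨?_, h1⟩
  have h2 : 1 < Fintype.card F ^ (m + 2) := Nat.one_lt_pow (by omega) (by omega)
  have h3 : p ∣ Fintype.card F ^ (m + 2) - 1 := by
    by_contra h
    exact (fac_eq_zero_iff hq (by omega)).1 (Nat.factorization_eq_zero_of_not_dvd h) hd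
  rw [h1, val_minus hp2 hpF (m + 1) hab, show m + 1 + 1 = m + 2 from rfl, fac_succ_eq_zero hp2 h3 h2.le, Nat.zero_add,
    vS_even hq hf, card_GL rfl hpF]

end Cfsg.Agent.H766.HT
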