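import Mathlib.LinearAlgebra.Matrix.GeneralLinearGroup.Card
import Mathlib.NumberTheory.Padics.PadicVal.Basic
import Mathlib.NumberTheory.Multiplicity
import Mathlib.FieldTheory.Finite.Basic

/-!
# The `p`-parts of the orders of the classical groups and of `GL_n` (helper766)

`p` an odd prime, `p ∤ q`, `f` the order of `q` modulo `p`.  `vL p q n` is the exponent of `p` in `|GL_n(q)|`
(`card_GL`), `vS p q m` the exponent of `p` in `∏ i < m, (q ^ (2 (i + 1)) - 1)`.

* `vS_odd`   : `f` odd: `vS p q m = vL p q m`;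
* `vS_even`  : `f` even: `vS p q m = vL p q (2 m) = vL p q (2 m + 1)`;
* `plus_*`   : `v (q ^ m - 1) + vS (m - 1)`;
* `minus_*`  : `v (q ^ (m + 1) + 1) + vS m`.
-/

set_option autoImplicit false
set_option linter.unusedSectionVars false
set_option linter.unusedVariables false

namespace Cfsg.Agent.H766.HT

open Finset

/-- the exponent of `p` in `|GL_n(q)|` -/
def vL (p q n : ℕ) : ℕ := ∑ i ∈ range n, (q ^ (i + 1) - 1).factorization p

/-- the exponent of `p` in `∏ i < m, (q ^ (2 (i + 1)) - 1)` -/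
def vS (p q m : ℕ) : ℕ := ∑ i ∈ range m, (q ^ (2 * (i + 1)) - 1).factorization p

theorem vL_succ (p q n : ℕ) : vL p q (n + 1) = vL p q n + (q ^ (n + 1) - 1).factorization p := sum_range_succ _ _

theorem vS_succ (p q m : ℕ) : vS p q (m + 1) = vS p q m + (q ^ (2 * (m + 1)) - 1).factorization p :=
  sum_range_succ _ _

variable {p : ℕ} [hp : Fact p.Prime] {q : ℕ}

theorem fac_eq_zero_iff (hq : 2 ≤ q) {t : ℕ} (ht : 0 < t) :
    (q ^ t - 1).factorization p = 0 ↔ ¬ orderOf (q : ZMod p) ∣ t := by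
  have h1 : 1 < q ^ t := Nat.one_lt_pow ht.ne' (by omega)
  have h2 : p ∣ q ^ t - 1 ↔ orderOf (q : ZMod p) ∣ t := by
    rw [orderOf_dvd_iff_pow_eq_one, ← ZMod.natCast_eq_zero_iff, Nat.cast_sub h1.le]
    push_cast
    exact sub_eq_zero
  rw [← h2, Nat.factorization_eq_zero_iff]
  constructor
  · rintro (h | h | h)
    · exact absurd hp.out h
    · exact h
    · omega
  · intro h
    exact Or.inr (Or.inl h)

/-- `v (q ^ (2 t) - 1) = v (q ^ t - 1) + v (q ^ t + 1)` -/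
theorem fac_two_mul (hq : 2 ≤ q) {t : ℕ} (ht : 0 < t) :
    (q ^ (2 * t) - 1).factorization p = (q ^ t - 1).factorization p + (q ^ t + 1).factorization p := by
  have h1 : 1 < q ^ t := Nat.one_lt_pow ht.ne' (by omega)
  have h2 : q ^ (2 * t) - 1 = (q ^ t - 1) * (q ^ t + 1) := by
    obtain ⟨k, hk⟩ : ∃ k, q ^ t = k + 1 := ⟨q ^ t - 1, by omega⟩
    rw [mul_comm 2 t, pow_mul, hk, Nat.add_sub_cancel, show (k + 1) ^ 2 = k * (k + 1 + 1) + 1 by ring,
      Nat.add_sub_cancel]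
  rw [h2, Nat.factorization_mul (by omega) (by omega), Finsupp.add_apply]

/-- not both -/
theorem fac_succ_eq_zero (hp2 : p ≠ 2) {t : ℕ} (h : p ∣ q ^ t - 1) (h1 : 1 ≤ q ^ t) :
    (q ^ t + 1).factorization p = 0 := by
  refine Nat.factorization_eq_zero_of_not_dvd fun h3 => ?_
  have h7 : p ∣ (q ^ t + 1) - (q ^ t - 1) := Nat.dvd_sub h3 h
  rw [show q ^ t + 1 - (q ^ t - 1) = 2 by omega] at h7
  exact hp2 ((Nat.prime_dvd_prime_iff_eq hp.out Nat.prime_two).1 h7)

/-- linear primes: `q ^ t + 1` is a unit -/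
theorem fac_succ_odd (hp2 : p ≠ 2) (hpq : ¬ p ∣ q) (hf : Odd (orderOf (q : ZMod p))) (t : ℕ) :
    (q ^ t + 1).factorization p = 0 := by
  refine Nat.factorization_eq_zero_of_not_dvd fun h => ?_
  rw [← ZMod.natCast_eq_zero_iff] at h
  push_cast at h
  have h0 : (q : ZMod p) ^ t = -1 := by linear_combination h
  have h1 : ((q : ZMod p) ^ t) ^ (orderOf (q : ZMod p)) = 1 := by
    rw [← pow_mul, mul_comm, pow_mul, pow_orderOf_eq_one, one_pow]
  rw [h0, hf.neg_one_pow] at h1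
  have h2 : ((2 : ℕ) : ZMod p) = 0 := by
    push_cast
    linear_combination -h1
  rw [ZMod.natCast_eq_zero_iff] at h2
  exact hp2 ((Nat.prime_dvd_prime_iff_eq hp.out Nat.prime_two).1 h2)

theorem vS_odd (hp2 : p ≠ 2) (hpq : ¬ p ∣ q) (hq : 2 ≤ q) (hf : Odd (orderOf (q : ZMod p))) (m : ℕ) :
    vS p q m = vL p q m := by
  refine sum_congr rfl fun i _ => ?_
  rw [fac_two_mul hq (Nat.succ_pos i), fac_succ_odd hp2 hpq hf, Nat.add_zero]

theorem fac_odd_eq_zero (hq : 2 ≤ q) (hf : Even (orderOf (q : ZMod p))) {t : ℕ} (ht : Odd t) :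
    (q ^ t - 1).factorization p = 0 := by
  rw [fac_eq_zero_iff hq ht.pos]
  intro h
  exact (Nat.not_even_iff_odd.2 ht) (even_iff_two_dvd.2 ((even_iff_two_dvd.1 hf).trans h))

theorem vL_even_succ (hq : 2 ≤ q) (hf : Even (orderOf (q : ZMod p))) (m : ℕ) :
    vL p q (2 * m + 1) = vL p q (2 * m) := by
  rw [vL_succ, fac_odd_eq_zero hq hf ⟨m, rfl⟩, Nat.add_zero]

theorem vS_even (hq : 2 ≤ q) (hf : Even (orderOf (q : ZMod p))) (m : ℕ) : vS p q m = vL p q (2 * m) := by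
  induction m with
  | zero => rfl
  | succ m ih =>
    rw [vS_succ, ih, show 2 * (m + 1) = 2 * m + 1 + 1 by ring, vL_succ, vL_even_succ hq hf]

theorem vS_even' (hq : 2 ≤ q) (hf : Even (orderOf (q : ZMod p))) (m : ℕ) : vS p q m = vL p q (2 * m + 1) := by
  rw [vL_even_succ hq hf, vS_even hq hf]

/-! ### plus type -/

theorem plus_odd (hp2 : p ≠ 2) (hpq : ¬ p ∣ q) (hq : 2 ≤ q) (hf : Odd (orderOf (q : ZMod p))) {m : ℕ} (hm : 0 < m) :
    (q ^ m - 1).factorization p + vS p q (m - 1) = vL p q m := by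
  obtain ⟨k, rfl⟩ : ∃ k, m = k + 1 := ⟨m - 1, by omega⟩
  rw [Nat.add_sub_cancel, vS_odd hp2 hpq hq hf, vL_succ, Nat.add_comm]

theorem plus_even_dvd (hp2 : p ≠ 2) (hq : 2 ≤ q) (hf : Even (orderOf (q : ZMod p))) {m : ℕ} (hm : 0 < m)
    (hd : orderOf (q : ZMod p) ∣ m) :
    (q ^ m - 1).factorization p + vS p q (m - 1) = vL p q (2 * m) := by
  have h1 : 1 < q ^ m := Nat.one_lt_pow hm.ne' (by omega)
  have h2 : p ∣ q ^ m - 1 := by
    by_contra h
    exact (fac_eq_zero_iff hq hm).1 (Nat.factorization_eq_zero_of_not_dvd h) hd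
  have h3 := fac_two_mul (p := p) hq hm
  rw [fac_succ_eq_zero hp2 h2 h1.le, Nat.add_zero] at h3
  obtain ⟨k, rfl⟩ : ∃ k, m = k + 1 := ⟨m - 1, by omega⟩
  rw [Nat.add_sub_cancel, ← h3, ← vS_even hq hf, vS_succ, Nat.add_comm]

theorem plus_even_not_dvd (hq : 2 ≤ q) (hf : Even (orderOf (q : ZMod p))) {m : ℕ} (hm : 0 < m)
    (hd : ¬ orderOf (q : ZMod p) ∣ m) :
    (q ^ m - 1).factorization p + vS p q (m - 1) = vL p q (2 * m - 2) := by
  rw [(fac_eq_zero_iff hq hm).2 hd, Nat.zero_add, vS_even hq hf]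
  congr 1
  omega

/-- plus type, `f` even, `f ∤ 2 m`: the full dimension is allowed, too. -/
theorem plus_even_full (hp2 : p ≠ 2) (hq : 2 ≤ q) (hf : Even (orderOf (q : ZMod p))) {m : ℕ} (hm : 0 < m)
    (hd : orderOf (q : ZMod p) ∣ 2 * m → orderOf (q : ZMod p) ∣ m) :
    (q ^ m - 1).factorization p + vS p q (m - 1) = vL p q (2 * m) := by
  by_cases h : orderOf (q : ZMod p) ∣ m
  · exact plus_even_dvd hp2 hq hf hm h
  · rw [plus_even_not_dvd hq hf hm h]
    have h1 : ¬ orderOf (q : ZMod p) ∣ 2 * m := fun h1 => h (hd h1)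
    obtain ⟨k, rfl⟩ : ∃ k, m = k + 1 := ⟨m - 1, by omega⟩
    rw [show 2 * (k + 1) - 2 = 2 * k by omega, show 2 * (k + 1) = 2 * k + 1 + 1 by ring, vL_succ, vL_even_succ hq hf,
      (fac_eq_zero_iff hq (by omega)).2 (by rwa [show 2 * k + 1 + 1 = 2 * (k + 1) by ring]), Nat.add_zero]

/-! ### minus type, Witt index `m`, dimension `2 m + 2` -/

theorem minus_odd (hp2 : p ≠ 2) (hpq : ¬ p ∣ q) (hq : 2 ≤ q) (hf : Odd (orderOf (q : ZMod p))) (m : ℕ) :
    (q ^ (m + 1) + 1).factorization p + vS p q m = vL p q m := by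
  rw [fac_succ_odd hp2 hpq hf, Nat.zero_add, vS_odd hp2 hpq hq hf]

theorem minus_even_dvd (hp2 : p ≠ 2) (hq : 2 ≤ q) (hf : Even (orderOf (q : ZMod p))) {m : ℕ}
    (hd : p ∣ q ^ (m + 1) + 1) :
    (q ^ (m + 1) + 1).factorization p + vS p q m = vL p q (2 * m + 2) := by
  have h1 : 1 < q ^ (m + 1) := Nat.one_lt_pow (Nat.succ_ne_zero m) (by omega)
  have h2 : (q ^ (m + 1) - 1).factorization p = 0 := by
    refine Nat.factorization_eq_zero_of_not_dvd fun h => ?_
    have h7 : p ∣ (q ^ (m + 1) + 1) - (q ^ (m + 1) - 1) := Nat.dvd_sub hd h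
    rw [show q ^ (m + 1) + 1 - (q ^ (m + 1) - 1) = 2 by omega] at h7
    exact hp2 ((Nat.prime_dvd_prime_iff_eq hp.out Nat.prime_two).1 h7)
  have h3 := fac_two_mul (p := p) hq (Nat.succ_pos m)
  rw [h2, Nat.zero_add] at h3
  rw [← h3, Nat.add_comm, ← vS_succ, vS_even hq hf]
  rfl

theorem minus_even_not_dvd (hq : 2 ≤ q) (hf : Even (orderOf (q : ZMod p))) {m : ℕ}
    (hd : ¬ p ∣ q ^ (m + 1) + 1) :
    (q ^ (m + 1) + 1).factorization p + vS p q m = vL p q (2 * m) := by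
  rw [Nat.factorization_eq_zero_of_not_dvd hd, Nat.zero_add, vS_even hq hf]

/-! ### the group `GL_n(q)` -/

theorem card_GL {F : Type*} [Field F] [Fintype F] (hF : Fintype.card F = q) (hpq : ¬ p ∣ q) (n : ℕ) :
    (Nat.card (Matrix.GeneralLinearGroup (Fin n) F)).factorization p = vL p q n := by
  have hq : 2 ≤ q := by rw [← hF]; exact Fintype.one_lt_card
  rw [Matrix.card_GL_field, hF]
  have hpos : ∀ i ∈ (univ : Finset (Fin n)), q ^ n - q ^ (i : ℕ) ≠ 0 := by
    intro i _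
    have := Nat.pow_lt_pow_right (by omega : 1 < q) i.2
    omega
  rw [Nat.factorization_prod hpos, Finsupp.finsetSum_apply,
    Fin.sum_univ_eq_sum_range (fun i => (q ^ n - q ^ i).factorization p) n]
  have h1 : ∀ i ∈ range n, (q ^ n - q ^ i).factorization p = (q ^ (n - i) - 1).factorization p := by
    intro i hi
    rw [mem_range] at hi
    have h2 : q ^ n - q ^ i = q ^ i * (q ^ (n - i) - 1) := by
      rw [Nat.mul_sub, mul_one, ← pow_add, Nat.add_sub_cancel' hi.le]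
    have h3 : 1 < q ^ (n - i) := Nat.one_lt_pow (by omega) (by omega)
    rw [h2, Nat.factorization_mul (pow_ne_zero _ (by omega)) (by omega), Finsupp.add_apply,
      Nat.factorization_eq_zero_of_not_dvd (fun h => hpq (hp.out.dvd_of_dvd_pow h)), Nat.zero_add]
  rw [sum_congr rfl h1, ← sum_range_reflect]
  refine sum_congr rfl fun i hi => ?_
  rw [mem_range] at hi
  rw [show n - (n - 1 - i) = i + 1 by omega]

end Cfsg.Agent.H766.HT
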