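import Cfsg.Agent.H35.HT.Val

/-!
# Dual polar degrees: orthogonal groups of minus type, `p ∣ Q + 1`, weight `w = -1` modulo `p` (helper766)
-/

set_option autoImplicit false

namespace Cfsg.Agent.H766.HT

open Finset Cfsg.Agent.H722.DPol Cfsg.Agent.H35.HT.Val

variable {p : ℕ} [hp : Fact p.Prime] {Q : ℕ}

/-- **Minus type**, `p ∣ Q + 1`, `w = -1` modulo `p`. -/
theorem exists_minus_one (hQ : 2 ≤ Q) (hd : orderOf (Q : ZMod p) = 2) {m w : ℕ}
    (hw : w = if Even (m + 1) then m else m + 1) (h1 : p ≤ w) (h2 : w < p ^ 2) (h3 : p ∣ w + 1) :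
    ∃ k, Even k ∧ 0 < k ∧ k ≤ m ∧ padicValRat p (ff (Q : ℚ) ((Q : ℚ) ^ 2) m k) = 1 := by
  have hd' : orderOf (Q : ZMod p) = 2 * 1 := hd
  have hd0 : 0 < 1 := one_pos
  have hp1 := odd_of hd' hd0
  have hp2 := hp.out.two_le
  have hp3 : p ≠ 2 := by rintro rfl; exact absurd hp1 (by decide)
  obtain ⟨c, hc⟩ := h3
  obtain ⟨b, hb⟩ := hp1
  -- `c` is even
  have hce : Even c := by
    have h4 : Even (p * c) := by
      rw [← hc, hw]
      split_ifs with H
      · exact H
      · exact (Nat.not_even_iff_odd.1 H).add_one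
    rcases Nat.even_mul.1 h4 with h5 | h5
    · exact absurd h5 (Nat.not_even_iff_odd.2 ⟨b, hb⟩)
    · exact h5
  have hcp : c < p := by
    have h4 : c ≤ p := by
      by_contra h
      have : p * (p + 1) ≤ p * c := Nat.mul_le_mul_left _ (by omega)
      nlinarith
    rcases Nat.lt_or_ge c p with h | h
    · exact h
    · obtain rfl : c = p := by omega
      exact absurd hce (Nat.not_even_iff_odd.2 ⟨b, hb⟩)
  have hc2 : 2 ≤ c := by
    obtain ⟨a, ha⟩ := hce
    by_contra h
    have : c = 0 := by omega
    rw [this] at hc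
    omega
  obtain ⟨e, rfl⟩ : ∃ e, c = e + 1 := ⟨c - 1, by omega⟩
  have hpe : p * 1 ≤ p * e := Nat.mul_le_mul_left _ (by omega)
  rw [mul_add, mul_one] at hc
  have hBk : ∀ k, 0 < k → Even k → B p Q (1 * k - 1) = B p Q 1 + (padicValNat p (k - 1) : ℤ) := by
    intro k hk he
    rw [B_div hd' hd0 (u := k - 1) (by omega), if_pos]
    obtain ⟨a, ha⟩ := he
    exact ⟨a - 1, by omega⟩
  by_cases H : Even (m + 1)
  · rw [if_pos H] at hw
    have hm : m + 1 = p * e + p := by omega
    have ho : Odd (m + 2) := H.add_one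
    have hA : A p Q (m + 1) = B p Q 1 + 1 := by
      have := A_mul hQ hd' hd0 (u := m + 1) (by omega)
      rw [one_mul, if_pos H, show padicValNat p (m + 1) = 1 by
        rw [hm, show p * e + p = p * (e + 1) by ring, v_p (by omega) hcp]] at this
      rw [this]
      norm_num
    have hA2 : ∀ k, Even k → k ≤ m → A p Q (m + 1 - 1 * k) = B p Q 1 + (padicValNat p (m + 1 - k) : ℤ) := by
      intro k hk hkm
      have := A_mul hQ hd' hd0 (u := m + 1 - k) (by omega)
      rw [one_mul, if_pos (H.tsub hk)] at this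
      rw [one_mul, this]
    have main : ∀ k, Even k → 0 < k → k ≤ m →
        padicValRat p (ff (Q : ℚ) ((Q : ℚ) ^ 2) m (1 * k)) =
          ((padicValNat p (m + 1).factorial : ℤ) - (padicValNat p k.factorial : ℤ) -
            (padicValNat p (m + 1 - k).factorial : ℤ)) - 1 + (padicValNat p (m + 1 - k) : ℤ) +
            (padicValNat p (k - 1) : ℤ) + ((padicValNat p ((2 * k - (m + 2)) + ((m + 2) - 2 * k)) : ℤ) -
            (padicValNat p (m + 2 - k) : ℤ)) := by
      intro k hk1 hk0 hkm
      have e := corr1 hd' hd0 (W := m + 2) hk1 ho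
      rw [if_pos (show k ≤ m + 2 by omega), one_mul (m + 2)] at e
      rw [v_minus hQ hd' hd0 hk1 hk0 (by omega), hA, hA2 k hk1 hkm, hBk k hk0 hk1,
        add_sub_assoc _ _ (B p Q (m + 2 - _)), e, Nat.div_one]
      ring
    have f1 : padicValNat p (m + 1).factorial = e + 1 := by
      rw [hm, show p * e + p = p * (e + 1) + 0 by ring, v_fact hcp (by omega)]
    have f2 : padicValNat p (p * e) = 1 := v_p (by omega) (by omega)
    rcases Nat.even_or_odd (b + 1) with hbe | hbe
    · -- `k = (p + 1) / 2`
      have hv : padicValRat p (ff (Q : ℚ) ((Q : ℚ) ^ 2) m (1 * (b + 1))) = 1 := by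
        rw [main (b + 1) hbe (by omega) (by omega), f1, v_fact_lt (by omega),
          show m + 1 - (b + 1) = p * e + b by omega, v_fact (by omega) (by omega), v_unit (by omega) (by omega),
          Nat.add_sub_cancel, v_lt (by omega) (by omega),
          show 2 * (b + 1) - (m + 2) + (m + 2 - 2 * (b + 1)) = p * e by omega, f2,
          show m + 2 - (b + 1) = p * e + (b + 1) by omega, v_unit (by omega) (by omega)]
        push_cast
        ring
      rw [one_mul] at hv
      exact ⟨b + 1, hbe, by omega, by omega, hv⟩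
    · -- `k = m + 2 - (p + 1) / 2`
      have hke : Even (p * e + (b + 1)) := by
        have h6 : m + 2 = (p * e + (b + 1)) + (b + 1) := by omega
        rw [h6] at ho
        rcases Nat.even_or_odd (p * e + (b + 1)) with h | h
        · exact h
        · exact absurd (h.add_odd hbe) (Nat.not_even_iff_odd.2 ho)
      have hv : padicValRat p (ff (Q : ℚ) ((Q : ℚ) ^ 2) m (1 * (p * e + (b + 1)))) = 1 := by
        rw [main _ hke (by omega) (by omega), f1, v_fact (by omega) (by omega),
          show m + 1 - (p * e + (b + 1)) = b by omega, v_fact_lt (by omega), v_lt (by omega) (by omega),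
          show p * e + (b + 1) - 1 = p * e + b by omega, v_unit (by omega) (by omega),
          show 2 * (p * e + (b + 1)) - (m + 2) + (m + 2 - 2 * (p * e + (b + 1))) = p * e by omega, f2,
          show m + 2 - (p * e + (b + 1)) = b + 1 by omega, v_lt (by omega) (by omega)]
        push_cast
        ring
      rw [one_mul] at hv
      exact ⟨_, hke, by omega, by omega, hv⟩
  · rw [if_neg H] at hw
    have hke : Even (p + 1) := by
      rw [hb]
      exact ⟨b + 1, by ring⟩
    have hm : m + 1 = p * e + (p - 1) := by omega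
    have hA : A p Q (m + 1) = 0 := by
      have := A_mul hQ hd' hd0 (u := m + 1) (by omega)
      rwa [one_mul, if_neg H] at this
    have hA2 : A p Q (m + 1 - 1 * (p + 1)) = 0 := by
      have := A_mul hQ hd' hd0 (u := m + 1 - (p + 1)) (by omega)
      rw [one_mul, if_neg] at this
      · rw [one_mul, this]
      · intro he
        obtain ⟨a, ha⟩ := he
        obtain ⟨b, hb⟩ := hke
        exact H ⟨a + b, by omega⟩
    obtain ⟨g, rfl⟩ : ∃ g, e = g + 1 := ⟨e - 1, by omega⟩
    rw [mul_add, mul_one] at hm
    have hv : padicValRat p (ff (Q : ℚ) ((Q : ℚ) ^ 2) m (1 * (p + 1))) = 1 := by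
      rw [v_minus hQ hd' hd0 hke (by omega) (by omega), hA, hA2, hBk _ (by omega) hke,
        add_sub_assoc _ _ (B p Q (m + 2 - _)),
        corr0 hd' hd0 (by omega) hke (fun W h5 h6 => H (by
          rw [one_mul] at h5
          obtain ⟨a, ha⟩ := h6
          exact ⟨a, by omega⟩)), Nat.div_one,
        show m + 1 = p * (g + 1) + (p - 1) by rw [mul_add]; omega, v_fact (by omega) (by omega),
        show p * (g + 1) + (p - 1) - (p + 1) = p * g + (p - 2) by rw [mul_add]; omega,
        v_fact (by omega) (by omega), show p + 1 = p * 1 + 1 by ring, v_fact (by omega) (by omega),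
        show p * 1 + 1 - 1 = p by omega, padicValNat_self]
      push_cast
      ring
    rw [one_mul] at hv
    exact ⟨p + 1, hke, by omega, by omega, hv⟩

end Cfsg.Agent.H766.HT
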